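import Cfsg.Agent.H655.Rg.Fld
import Cfsg.Agent.H449.Reg.Types
import Cfsg.Agent.H326.CGU.Form
import Cfsg.Agent.LieClassical.GUOrder

/-!
# S3691-T12: the hermitian form of an isometry group normalising a quadratic field, `m` odd (helper83)

`exists_her` : `K` a field of matrices of degree two over `F`, `dim = 2 m`, `m` odd, `B` a nondegenerate symmetric form, `x` an
isometry of `B` centralising `K`, of prime order `r`, `r` primitive for `q ^ (2 m) - 1`: coordinates over `E`, `|E| = q ^ 2`, such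
that the isometries of `B` centralising `K` become elements of `GU_m(q)`.
-/

set_option autoImplicit false

namespace Cfsg.Agent.H83.Rg

open Module Cfsg Cfsg.Geo Cfsg.Agent.H655.Rg
open Cfsg.Agent.H884.El (PP)
open Cfsg.Agent.H951 (fx cm Inv)
open Cfsg.Agent.LieClassical.GUOrder (frob frob_apply frob_frob)
open scoped MatrixGroups Matrix

/-- orthonormal coordinates -/
theorem exists_coord {L V : Type*} [Field L] [Fintype L] [AddCommGroup V] [Module L V] [FiniteDimensional L V] {q m : ℕ}
    (hL : Fintype.card L = q ^ 2) (hσ : frob hL ≠ RingHom.id L) (h : V →ₛₗ[frob hL] V →ₗ[L] L) (hs : h.IsSymm)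
    (hsep : h.SeparatingLeft) (hm : finrank L V = m) (hm0 : 0 < m) :
    ∃ ψ : V ≃ₗ[L] (Fin m → L), ∀ u v : Fin m → L, h (ψ.symm v) (ψ.symm u) = hermForm m L q u v := by
  have hne : Nonempty (Fin m) := ⟨⟨0, hm0⟩⟩
  obtain ⟨b, hb⟩ := Cfsg.Agent.ClassicalGeometry.HermOrthonormal.exists_orthonormal_family hσ (frob_frob hL) h hs hsep m
    (by rw [hm])
  have hli := Cfsg.Agent.ClassicalGeometry.HermOrthonormal.linearIndependent_of_orthonormal h hb
  let bs : Module.Basis (Fin m) L V := basisOfLinearIndependentOfCardEqFinrank hli (by rw [Fintype.card_fin, hm])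
  have hbs : ∀ i, bs i = b i := fun i => by
    exact congrFun (coe_basisOfLinearIndependentOfCardEqFinrank hli (by rw [Fintype.card_fin, hm])) i
  refine ⟨bs.equivFun, fun u v => ?_⟩
  rw [Module.Basis.equivFun_symm_apply, Module.Basis.equivFun_symm_apply]
  simp only [hbs]
  rw [map_sum h, LinearMap.sum_apply]
  unfold hermForm
  refine Finset.sum_congr rfl fun i _ => ?_
  rw [LinearMap.map_smulₛₗ, LinearMap.smul_apply, map_sum, Finset.sum_eq_single i]
  · rw [LinearMap.map_smul, hb, if_pos rfl, smul_eq_mul, smul_eq_mul, mul_one, mul_comm]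
    rfl
  · intro j _ hj
    rw [LinearMap.map_smul, hb, if_neg (Ne.symm hj), smul_zero]
  · intro hi
    exact absurd (Finset.mem_univ i) hi

theorem exists_her {F : Type} [Field F] [Fintype F] {n m : ℕ} {K : Subalgebra F (Matrix (Fin n) (Fin n) F)}
    (hK : IsFieldSubalgebra 2 K) (hn : n = 2 * m) (hm : Odd m) (B : LinearMap.BilinForm F (Fin n → F))
    (hsym : ∀ u v, B u v = B v u) (hnd : ∀ u, (∀ v, B u v = 0) → u = 0)
    {x : GL (Fin n) F} (hxz : x ∈ cz K)
    (hxB : ∀ u v, B ((x : Matrix (Fin n) (Fin n) F) *ᵥ u) ((x : Matrix (Fin n) (Fin n) F) *ᵥ v) = B u v)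
    {r : ℕ} (hr : PP (Nat.card F) n r) (hxr : x ^ r = 1) (hx1 : x ≠ 1) :
    ∃ (E : Type) (_ : Field E) (_ : Fintype E), Fintype.card E = Fintype.card F ^ 2 ∧ ∃ φ : Fr K E m,
      ∀ y : cz K, (∀ u v, B (((y : GL (Fin n) F) : Matrix (Fin n) (Fin n) F) *ᵥ u)
        (((y : GL (Fin n) F) : Matrix (Fin n) (Fin n) F) *ᵥ v) = B u v) →
        liftHom φ y ∈ Cfsg.GU m E (Fintype.card F) := by
  classical
  have hm0 : 0 < m := hm.pos
  have h0 : 0 < n := by omega
  have hne : Nonempty (Fin n) := ⟨⟨0, h0⟩⟩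
  have hq : 2 ≤ Fintype.card F := Fintype.one_lt_card
  let _ : Field K := (H906.Cov.isField_of hK).toField
  have hfin : Finite K := Module.finite_of_finite F
  let _ : Fintype K := Fintype.ofFinite K
  have h1 := Module.finrank_mul_finrank F K (Fin n → F)
  rw [hK.finrank_eq, Module.finrank_fintype_fun_eq_card, Fintype.card_fin] at h1
  have h2 : Module.finrank K (Fin n → F) = m := Nat.eq_of_mul_eq_mul_left (by norm_num : 0 < 2) (h1.trans hn)
  have hff : Module.Finite K (Fin n → F) := Module.Finite.of_restrictScalars_finite F K (Fin n → F)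
  have hcK : Fintype.card K = Fintype.card F ^ 2 := by rw [Module.card_eq_pow_finrank (K := F), hK.finrank_eq]
  have hsm : ∀ (a : K) (v : Fin n → F), a • v = (a : Matrix (Fin n) (Fin n) F) *ᵥ v := fun a v => rfl
  -- the involution
  let σ : K →+* K := frob hcK
  have hσ : ∀ a : K, σ a = a ^ Fintype.card F := fun a => rfl
  have hσ2 : ∀ a, σ (σ a) = a := frob_frob hcK
  have hσ1 : σ ≠ RingHom.id K := by
    intro h
    have h3 : ∀ a : K, a ^ Fintype.card F = a := fun a => by rw [← hσ, h]; rfl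
    have h4 := FiniteField.X_pow_card_sub_X_natDegree_eq K (p := Fintype.card F) (by omega)
    have h5 : (Polynomial.X ^ Fintype.card F - Polynomial.X : Polynomial K) ≠ 0 := by
      intro h0
      rw [h0, Polynomial.natDegree_zero] at h4
      omega
    have h6 : (Finset.univ : Finset K).val ≤ (Polynomial.X ^ Fintype.card F - Polynomial.X : Polynomial K).roots := by
      rw [Finset.val_le_iff_val_subset]
      intro a _
      rw [Polynomial.mem_roots h5]
      simp [h3 a]
    have h7 := Multiset.card_le_card h6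
    have h8 := h7.trans ((Polynomial.card_roots' _).trans h4.le)
    have h9 : Fintype.card K ≤ Fintype.card F := h8
    rw [hcK] at h9
    nlinarith
  have hστ : ∀ c : F, σ (algebraMap F K c) = algebraMap F K (RingHom.id F c) := by
    intro c
    rw [hσ, ← map_pow, FiniteField.pow_card]
    rfl
  -- the adjoint
  have hqm : (Matrix.toLin' (x : Matrix (Fin n) (Fin n) F)) ^ (Fintype.card F ^ m + 1) = 1 := by
    have h3 : r ∣ Fintype.card F ^ m + 1 := by
      have h4 : r ∣ Fintype.card F ^ n - 1 := by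
        rw [← Nat.card_eq_fintype_card]
        exact (hr.dvd_iff (by rw [Nat.card_eq_fintype_card]; omega) n).2 dvd_rfl
      have h5 : Fintype.card F ^ n - 1 = (Fintype.card F ^ m - 1) * (Fintype.card F ^ m + 1) := by
        rw [hn, mul_comm 2 m, pow_mul, mul_comm (Fintype.card F ^ m - 1)]
        have := Nat.sq_sub_sq (Fintype.card F ^ m) 1
        rw [one_pow] at this
        exact this
      rw [h5] at h4
      rcases hr.prime.dvd_mul.1 h4 with h6 | h6
      · exfalso
        rw [← Nat.card_eq_fintype_card] at h6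
        have h7 := (hr.dvd_iff (by rw [Nat.card_eq_fintype_card]; omega) m).1 h6
        have := Nat.le_of_dvd hm0 h7
        omega
      · exact h6
    obtain ⟨c, hc⟩ := h3
    have h4 : x ^ (Fintype.card F ^ m + 1) = 1 := by rw [hc, pow_mul, hxr, one_pow]
    rw [← Matrix.toLin'_pow, ← Units.val_pow_eq_pow_val, h4, Units.val_one, Matrix.toLin'_one]
    rfl
  have hlr : (Matrix.toLin' (x : Matrix (Fin n) (Fin n) F)) ^ r = 1 := by
    rw [← Matrix.toLin'_pow, ← Units.val_pow_eq_pow_val, hxr, Units.val_one, Matrix.toLin'_one]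
    rfl
  have hl1 : Matrix.toLin' (x : Matrix (Fin n) (Fin n) F) ≠ 1 := by
    intro h
    apply hx1
    apply Units.ext
    apply Matrix.toLin'.injective
    rw [h, Units.val_one, Matrix.toLin'_one]
    rfl
  have hkpow : ∀ (a : K) (i : ℕ) (v : Fin n → F), (a ^ i) • v =
      ((Matrix.toLin' (a : Matrix (Fin n) (Fin n) F)) ^ i) v := by
    intro a i
    induction i with
    | zero => intro v; rw [pow_zero, pow_zero, one_smul]; rfl
    | succ i ih =>
      intro v
      rw [pow_succ', pow_succ', mul_smul, ih]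
      rfl
  have hadj : ∀ (a : K) (u v : Fin n → F), B (a • u) v = B u (σ a • v) := by
    intro a u v
    have h3 := H449.Reg.bil_adj (B := B) (z := Matrix.toLin' (x : Matrix (Fin n) (Fin n) F))
      (J := Matrix.toLin' (a : Matrix (Fin n) (Fin n) F)) (U := ⊤)
      (fun u w => by rw [Matrix.toLin'_apply, Matrix.toLin'_apply]; exact hxB u w) hqm (fun _ _ => trivial)
      (fun W _ hW => inv_all hr h0 hlr hl1 (by rw [Module.finrank_fintype_fun_eq_card, Fintype.card_fin]) hW)
      (fun _ _ => trivial) (fun w => by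
        rw [Matrix.toLin'_apply, Matrix.toLin'_apply, Matrix.toLin'_apply, Matrix.toLin'_apply, Matrix.mulVec_mulVec,
          Matrix.mulVec_mulVec, hxz _ a.2]) (u := u) (w := v) trivial trivial
    rw [Matrix.toLin'_apply] at h3
    rw [hsm, h3, ← hkpow]
    congr 2
    -- `a ^ q ^ m = a ^ q`
    obtain ⟨i, hi⟩ := hm
    have h4 : ∀ i : ℕ, a ^ Fintype.card F ^ (2 * i + 1) = σ a := by
      intro i
      induction i with
      | zero => rw [mul_zero, zero_add, pow_one, hσ]
      | succ i ih =>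
        rw [show 2 * (i + 1) + 1 = (2 * i + 1) + 2 by ring, pow_add, pow_mul, ih, ← hcK, FiniteField.pow_card]
    rw [hi, h4]
  obtain ⟨h, hs, hsep, hiso⟩ := H326.CGU.exists_herm (F := F) (L := K) (V := Fin n → F) (τ := RingHom.id F) (σ := σ) hσ1 hσ2
    hστ B hadj (ε := 1) (Or.inl rfl) (fun u v => by rw [one_mul]; exact hsym v u) hnd
  obtain ⟨ψ, hform⟩ := exists_coord hcK hσ1 h hs hsep h2 hm0
  let φ : Fr K K m := ⟨ψ.toAddEquiv, fun k => if h : k ∈ K then ⟨k, h⟩ else 0, fun k hk v => by
    rw [dif_pos hk]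
    exact ψ.map_smul (⟨k, hk⟩ : K) v, by
    rintro ⟨k, hk⟩
    exact ⟨k, hk, dif_pos hk⟩⟩
  refine ⟨K, inferInstance, inferInstance, hcK, φ, fun y hy => ?_⟩
  let Y : (Fin n → F) ≃ₗ[K] (Fin n → F) :=
    { toFun := fun v => ((y : GL (Fin n) F) : Matrix (Fin n) (Fin n) F) *ᵥ v
      map_add' := fun a b => Matrix.mulVec_add _ _ _
      map_smul' := fun a v => by
        rw [hsm, Matrix.mulVec_mulVec, y.2 _ a.2, ← Matrix.mulVec_mulVec]
        rfl
      invFun := fun v => (((y : GL (Fin n) F)⁻¹ : GL (Fin n) F) : Matrix (Fin n) (Fin n) F) *ᵥ v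
      left_inv := fun v => by
        change (((y : GL (Fin n) F)⁻¹ : GL (Fin n) F) : Matrix (Fin n) (Fin n) F) *ᵥ
          (((y : GL (Fin n) F) : Matrix (Fin n) (Fin n) F) *ᵥ v) = v
        rw [Matrix.mulVec_mulVec, ← Units.val_mul, inv_mul_cancel, Units.val_one, Matrix.one_mulVec]
      right_inv := fun v => by
        change ((y : GL (Fin n) F) : Matrix (Fin n) (Fin n) F) *ᵥ
          ((((y : GL (Fin n) F)⁻¹ : GL (Fin n) F) : Matrix (Fin n) (Fin n) F) *ᵥ v) = v
        rw [Matrix.mulVec_mulVec, ← Units.val_mul, mul_inv_cancel, Units.val_one, Matrix.one_mulVec] }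
  have hYB : ∀ u v, h (Y u) (Y v) = h u v := (hiso Y).2 hy
  intro u v
  change hermForm m K (Fintype.card F) ((liftHom φ y : Matrix (Fin m) (Fin m) K) *ᵥ u)
    ((liftHom φ y : Matrix (Fin m) (Fin m) K) *ᵥ v) = hermForm m K (Fintype.card F) u v
  rw [lift_apply, lift_apply, ← hform, ← hform, ← hYB (ψ.symm v) (ψ.symm u)]
  have h3 : ∀ w : Fin m → K, ψ.symm (φ.ψ (((y : GL (Fin n) F) : Matrix (Fin n) (Fin n) F) *ᵥ φ.ψ.symm w)) =
      Y (ψ.symm w) := fun w => ψ.symm_apply_apply _
  rw [h3, h3]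

end Cfsg.Agent.H83.Rg
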